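import Cfsg.Agent.H146.LemmaY

/-!
# Lemma Y with two reflections of different classes (S2491 B2, even dimension, (E-A))

* `step_Y`  : the induction step of `H146.Ore.exists_Y` for a prescribed pair `x, x'`;
* `sph`     : in a nondegenerate space of dimension at least three, `B(z, x) = v ≠ 0` and `Q x = c` have a common
              solution;
* `exists_pair` : vectors `x ∈ Em s`, `x' ∈ Em t` with `Q x = Q x' ≠ 0` and `Q (x - x') = k`;
* `exists_Y'` : Lemma Y for `m ≥ 4` with `e₁, e₂ ∈ U`, `Q e₁ * Q e₂` not a square.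
-/

set_option autoImplicit false
set_option linter.unusedSectionVars false

universe u v

namespace Cfsg.Agent.H542.QS

open Module QuadraticMap
open Cfsg.Agent.ClassicalGeometry.Reflection Cfsg.Agent.ClassicalGeometry.SpinorSign
  Cfsg.Agent.ClassicalGeometry.OmegaIndex Cfsg.Agent.ClassicalGeometry.Universal
  Cfsg.Agent.ClassicalGeometry.CartanDieudonne Cfsg.Agent.ClassicalGeometry.GenReflections
open Cfsg.Agent.H146.Ore

variable {ι : Type} [Fintype ι] [DecidableEq ι] {F : Type u} [Field F]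
variable {Q : QuadraticForm F (ι → F)} [Finite F]

variable (Q) in
/-- the conclusion of Lemma Y -/
structure YC (m : ℕ) (s t y : Cfsg.isometryGroup F (⇑Q)) (U : Submodule F (ι → F)) : Prop where
  dim : finrank F U ≤ m
  ns : U = ⊥ ∨ ∃ u ∈ U, Q u ≠ 0
  conj : y * s * y⁻¹ = t
  fix : ∀ z ∈ Pp Q U, act Q y z = z
  perp : ∀ z, act Q s z = z → act Q t z = z → z ∈ Pp Q U

/-- reduced pair of involutions -/
structure Red (m : ℕ) (s t : Cfsg.isometryGroup F (⇑Q)) : Prop where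
  ss : s * s = 1
  tt : t * t = 1
  ms : finrank F (Em Q s) = m
  mt : finrank F (Em Q t) = m
  del : del Q s = del Q t

/-- **The induction step of Lemma Y for a prescribed pair.** -/
theorem step_Y (h2 : (2 : F) ≠ 0) {m : ℕ} {s t : Cfsg.isometryGroup F (⇑Q)} (R : Red (m + 1) s t)
    {x x' : ι → F} (hx : act Q s x = -x) (hx' : act Q t x' = -x') (hQx : Q x ≠ 0) (hxx : Q x = Q x')
    (he : Q (x - x') ≠ 0) :
    ∃ s' t' : Cfsg.isometryGroup F (⇑Q), Red m s' t' ∧ ∀ y₁ U₁, YC Q m s' t' y₁ U₁ →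
      YC Q (m + 1) s t (y₁ * reflIso Q (x - x') he) (U₁ ⊔ Submodule.span F {x - x'}) := by
  have hQx' : Q x' ≠ 0 := hxx ▸ hQx
  obtain ⟨hs, ht, hms, hmt, hst⟩ := R
  obtain ⟨ρ, hρdef⟩ : ∃ ρ, ρ = reflIso Q (x - x') he := ⟨_, rfl⟩
  have hρx : act Q ρ x = x' := by
    rw [hρdef, act_reflIso]
    have e2 := map_add' Q x (-x')
    rw [← sub_eq_add_neg, QuadraticMap.map_neg, polar_neg_right] at e2
    have : polar (⇑Q) (x - x') x = Q (x - x') := by
      rw [polar_sub_left, polar_eq_two, e2, polar_comm (⇑Q) x' x, ← hxx]; ring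
    rw [this, inv_mul_cancel₀ he, one_smul]
    abel
  have hρinv : ∀ z, act Q ρ⁻¹ z = act Q ρ z := by
    intro z
    have : ρ⁻¹ = ρ := by rw [inv_eq_iff_mul_eq_one, hρdef, reflIso_mul_self]
    rw [this]
  have hs' : (ρ * s * ρ⁻¹) * (ρ * s * ρ⁻¹) = 1 := by
    rw [show ρ * s * ρ⁻¹ * (ρ * s * ρ⁻¹) = ρ * (s * s) * ρ⁻¹ by group, hs]; group
  have hs'x : act Q (ρ * s * ρ⁻¹) x' = -x' := by
    have : act Q ρ⁻¹ x' = x := act_inv_eq Q ρ x x' hρx
    rw [act_mul, act_mul, this, hx, map_neg, hρx]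
  obtain ⟨q1, q2, q3, q4, q5⟩ := peel h2 hs' hQx' hs'x
  obtain ⟨r1, r2, r3, r4, r5⟩ := peel h2 ht hQx' hx'
  rw [finrank_Em_conj, hms] at q5
  rw [hmt] at r5
  refine ⟨ρ * s * ρ⁻¹ * reflIso Q x' hQx', t * reflIso Q x' hQx', ⟨q1, r1, by omega, by omega, ?_⟩, ?_⟩
  · rw [map_mul, map_mul (Cfsg.Agent.H146.Ore.del Q) t, del_conj, hst]
  intro y₁ U₁ H
  obtain ⟨i1, i2, i3, i4, i5⟩ := H
  have hx'U : x' ∈ Pp Q U₁ := i5 x' q4 r4
  have hy1x : act Q y₁ x' = x' := i4 x' hx'U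
  have hy1r : y₁ * reflIso Q x' hQx' * y₁⁻¹ = reflIso Q x' hQx' := conj_refl hQx' hQx' y₁ (Or.inl hy1x)
  rw [← hρdef]
  refine ⟨?_, ?_, ?_, ?_, ?_⟩
  · have h5 := Submodule.finrank_add_le_finrank_add_finrank U₁ (Submodule.span F {x - x'})
    have h6 : finrank F (Submodule.span F {x - x'}) ≤ 1 :=
      (finrank_span_le_card ({x - x'} : Set (ι → F))).trans (by simp)
    omega
  · exact Or.inr ⟨x - x', Submodule.mem_sup_right (Submodule.mem_span_singleton_self _), he⟩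
  · have hsplit : ρ * s * ρ⁻¹ = (ρ * s * ρ⁻¹ * reflIso Q x' hQx') * reflIso Q x' hQx' := by
      rw [mul_assoc (ρ * s * ρ⁻¹), reflIso_mul_self, mul_one]
    calc y₁ * ρ * s * (y₁ * ρ)⁻¹ = y₁ * (ρ * s * ρ⁻¹) * y₁⁻¹ := by group
      _ = y₁ * ((ρ * s * ρ⁻¹ * reflIso Q x' hQx') * reflIso Q x' hQx') * y₁⁻¹ := by rw [← hsplit]
      _ = (y₁ * (ρ * s * ρ⁻¹ * reflIso Q x' hQx') * y₁⁻¹) * (y₁ * reflIso Q x' hQx' * y₁⁻¹) := by group
      _ = t := by rw [i3, hy1r, mul_assoc, reflIso_mul_self, mul_one]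
  · intro z hz
    rw [Pp_sup] at hz
    rw [act_mul, hρdef, act_refl_of_perp he hz.2, i4 z hz.1]
  · intro z hz hz'
    have hxz : polar (⇑Q) x z = 0 := by rw [polar_comm]; exact polar_eq_zero h2 s hz hx
    have hxz' : polar (⇑Q) x' z = 0 := by rw [polar_comm]; exact polar_eq_zero h2 t hz' hx'
    have hez : polar (⇑Q) (x - x') z = 0 := by
      rw [polar_sub_left, hxz, hxz', sub_zero]
    have hρz : act Q ρ z = z := by rw [hρdef]; exact act_refl_of_perp he hez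
    rw [Pp_sup]
    refine ⟨i5 z ?_ (r3 z hz'), hez⟩
    apply q3
    rw [act_mul, act_mul, hρinv, hρz, hz, hρz]

/-- **Spheres and hyperplanes.** -/
theorem sph (h2 : (2 : F) ≠ 0) {E : Submodule F (ι → F)} (hE : E ⊓ Pp Q E = ⊥) (h3 : 3 ≤ finrank F E)
    {z : ι → F} (hz : z ∈ E) (hz0 : z ≠ 0) {v : F} (hv : v ≠ 0) (c : F) :
    ∃ x ∈ E, polar (⇑Q) z x = v ∧ Q x = c := by
  by_cases hQz : Q z = 0
  · -- `z` singular
    obtain ⟨w, hw, hzw⟩ : ∃ w ∈ E, polar (⇑Q) z w ≠ 0 := by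
      by_contra hcon
      push Not at hcon
      have : z ∈ E ⊓ Pp Q E := ⟨hz, fun y hy => by rw [polar_comm]; exact hcon y hy⟩
      rw [hE, Submodule.mem_bot] at this
      exact hz0 this
    -- `x = a w + b z`
    obtain ⟨d, hd⟩ : ∃ d, d = polar (⇑Q) z w := ⟨_, rfl⟩
    have hd0 : d ≠ 0 := hd ▸ hzw
    refine ⟨(v / d) • w + ((c - (v / d) * (v / d) * Q w) / v) • z, E.add_mem (E.smul_mem _ hw) (E.smul_mem _ hz),
      ?_, ?_⟩
    · rw [polar_add_right, polar_smul_right, polar_smul_right, polar_eq_two, hQz, ← hd, smul_eq_mul, smul_eq_mul]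
      field_simp
      ring
    · rw [map_add', QuadraticMap.map_smul, QuadraticMap.map_smul, polar_smul_left, polar_smul_right, hQz,
        polar_comm (⇑Q) w z, ← hd]
      simp only [smul_eq_mul]
      field_simp
      ring
  · -- `z` nonsingular
    obtain ⟨W, hW⟩ : ∃ W : Submodule F (ι → F), W = E ⊓ Pp Q (Submodule.span F {z}) := ⟨_, rfl⟩
    have hW1 : ∀ w, w ∈ W ↔ w ∈ E ∧ polar (⇑Q) z w = 0 := by
      intro w
      rw [hW]
      constructor
      · intro hw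
        exact ⟨hw.1, hw.2 z (Submodule.mem_span_singleton_self z)⟩
      · intro hw
        refine ⟨hw.1, fun y hy => ?_⟩
        obtain ⟨c, rfl⟩ := Submodule.mem_span_singleton.1 hy
        rw [polar_smul_left, hw.2, smul_zero]
    have hdec : E ≤ W ⊔ Submodule.span F {z} := by
      intro w hw
      have : w = (w - ((2 * Q z)⁻¹ * polar (⇑Q) z w) • z) + ((2 * Q z)⁻¹ * polar (⇑Q) z w) • z := by abel
      rw [this]
      refine Submodule.add_mem_sup ((hW1 _).2 ⟨E.sub_mem hw (E.smul_mem _ hz), ?_⟩)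
        (Submodule.smul_mem _ _ (Submodule.mem_span_singleton_self z))
      rw [polar_sub_right, polar_smul_right, polar_eq_two, smul_eq_mul]
      have : (2 * Q z) ≠ 0 := mul_ne_zero h2 hQz
      field_simp
      ring
    have hrad : W ⊓ Pp Q W = ⊥ := by
      rw [eq_bot_iff, ← hE]
      rintro w ⟨hw, hw'⟩
      refine ⟨((hW1 w).1 hw).1, fun y hy => ?_⟩
      obtain ⟨a, ha, b, hb, rfl⟩ := Submodule.mem_sup.1 (hdec hy)
      obtain ⟨k, rfl⟩ := Submodule.mem_span_singleton.1 hb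
      rw [polar_add_left, polar_smul_left, hw' a ha, ((hW1 w).1 hw).2, smul_zero, add_zero]
    have hdim : 2 ≤ finrank F W := by
      have e1 := Submodule.finrank_mono hdec
      have e2 := Submodule.finrank_add_le_finrank_add_finrank W (Submodule.span F {z})
      have e3 : finrank F (Submodule.span F {z}) ≤ 1 :=
        (finrank_span_le_card ({z} : Set (ι → F))).trans (by simp)
      omega
    obtain ⟨w, hw, hwc⟩ := rep h2 (W := W) (by rw [hrad, finrank_bot]; omega)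
      (c - (v / (2 * Q z)) * (v / (2 * Q z)) * Q z)
    have hw' := (hW1 w).1 hw
    have h2z : (2 * Q z) ≠ 0 := mul_ne_zero h2 hQz
    refine ⟨(v / (2 * Q z)) • z + w, E.add_mem (E.smul_mem _ hz) hw'.1, ?_, ?_⟩
    · rw [polar_add_right, polar_smul_right, polar_eq_two, hw'.2, smul_eq_mul, add_zero]
      field_simp
    · rw [map_add', QuadraticMap.map_smul, polar_smul_left, hw'.2, hwc, smul_eq_mul, smul_eq_mul]
      ring

/-- the component in the `(-1)`-eigenspace -/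
theorem exists_comp (h2 : (2 : F) ≠ 0) {s : Cfsg.isometryGroup F (⇑Q)} (hs : s * s = 1) (y : ι → F) :
    ∃ z ∈ Em Q s, ∀ x ∈ Em Q s, polar (⇑Q) z x = polar (⇑Q) y x := by
  obtain ⟨a, b, ha, hb, rfl⟩ := exists_decomp h2 hs y
  refine ⟨b, hb, fun x hx => ?_⟩
  rw [polar_add_left, polar_eq_zero h2 s ha hx, zero_add]

/-- **Pairs with prescribed difference.** -/
theorem exists_pair (h2 : (2 : F) ≠ 0) (hQ : (polarBilin Q).Nondegenerate) {m : ℕ} (hm : 3 ≤ m)
    {s t : Cfsg.isometryGroup F (⇑Q)} (R : Red m s t) {k : F} (hk : k ≠ 0) :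
    ∃ x x' : ι → F, act Q s x = -x ∧ act Q t x' = -x' ∧ Q x ≠ 0 ∧ Q x = Q x' ∧ Q (x - x') = k := by
  obtain ⟨hs, ht, hms, hmt, -⟩ := R
  have hsub : ∀ x x' : ι → F, Q (x - x') = Q x + Q x' - polar (⇑Q) x x' := by
    intro x x'
    have e2 := map_add' Q x (-x')
    rw [← sub_eq_add_neg, QuadraticMap.map_neg, polar_neg_right] at e2
    rw [e2]; ring
  by_cases hperp : ∀ x ∈ Em Q s, ∀ x' ∈ Em Q t, polar (⇑Q) x x' = 0
  · have e1 : finrank F (Em Q s ⊓ Pp Q (Em Q s) : Submodule F (ι → F)) + 2 ≤ finrank F (Em Q s) := by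
      rw [Em_nondeg h2 hQ hs, finrank_bot]; omega
    have e2 : finrank F (Em Q t ⊓ Pp Q (Em Q t) : Submodule F (ι → F)) + 2 ≤ finrank F (Em Q t) := by
      rw [Em_nondeg h2 hQ ht, finrank_bot]; omega
    obtain ⟨x, hx, hx1⟩ := rep h2 e1 (k / 2)
    obtain ⟨x', hx', hx1'⟩ := rep h2 e2 (k / 2)
    refine ⟨x, x', hx, hx', by rw [hx1]; exact div_ne_zero hk h2, by rw [hx1, hx1'], ?_⟩
    rw [hsub, hperp x hx x' hx', hx1, hx1']
    field_simp
    ring
  · push Not at hperp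
    obtain ⟨x0, hx0, x0', hx0', h0⟩ := hperp
    obtain ⟨z, hz, hzx⟩ := exists_comp h2 hs x0'
    have hz0 : z ≠ 0 := by
      rintro rfl
      apply h0
      rw [polar_comm, ← hzx x0 hx0]
      simp
    obtain ⟨x, hx, hx1, hx2⟩ := sph h2 (Em_nondeg h2 hQ hs) (by omega) hz hz0 (one_ne_zero (α := F)) (-k / 2)
    obtain ⟨z', hz', hzx'⟩ := exists_comp h2 ht x
    have hz0' : z' ≠ 0 := by
      rintro rfl
      have h4 := hzx' x0' hx0'
      rw [polar_comm (⇑Q) x x0', ← hzx x hx, hx1] at h4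
      simp at h4
    obtain ⟨x', hx', hx1', hx2'⟩ := sph h2 (Em_nondeg h2 hQ ht) (by omega) hz' hz0'
      (v := -(2 * k)) (neg_ne_zero.2 (mul_ne_zero h2 hk)) (-k / 2)
    rw [hzx' x' hx'] at hx1'
    refine ⟨x, x', hx, hx', by rw [hx2]; exact div_ne_zero (neg_ne_zero.2 hk) h2, by rw [hx2, hx2'], ?_⟩
    rw [hsub, hx1', hx2, hx2']
    field_simp
    ring

/-- **Lemma Y with two reflections of different classes.** -/
theorem exists_Y' (h2 : (2 : F) ≠ 0) (hQ : (polarBilin Q).Nondegenerate) {m : ℕ} (hm : 4 ≤ m)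
    {s t : Cfsg.isometryGroup F (⇑Q)} (hs : s * s = 1) (ht : t * t = 1) (hms : finrank F (Em Q s) = m)
    (hmt : finrank F (Em Q t) = m) (hst : del Q s = del Q t) :
    ∃ (y : Cfsg.isometryGroup F (⇑Q)) (U : Submodule F (ι → F)), finrank F U ≤ m ∧
      (U = ⊥ ∨ ∃ u ∈ U, Q u ≠ 0) ∧ y * s * y⁻¹ = t ∧ (∀ z ∈ Pp Q U, act Q y z = z) ∧
      (∀ z, act Q s z = z → act Q t z = z → z ∈ Pp Q U) ∧
      ∃ e₁ ∈ U, ∃ e₂ ∈ U, ¬ IsSquare (Q e₁ * Q e₂) := by
  obtain ⟨k, hk⟩ := FiniteField.exists_nonsquare (ringChar_ne_two h2)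
  have hk0 : k ≠ 0 := by rintro rfl; exact hk IsSquare.zero
  obtain ⟨n, rfl⟩ : ∃ n, m = n + 1 + 1 := ⟨m - 2, by omega⟩
  have R : Red (n + 1 + 1) s t := ⟨hs, ht, hms, hmt, hst⟩
  obtain ⟨x, x', hx, hx', hQx, hxx, he⟩ := exists_pair h2 hQ (by omega) R (one_ne_zero (α := F))
  have he0 : Q (x - x') ≠ 0 := by rw [he]; exact one_ne_zero
  obtain ⟨s', t', R', step⟩ := step_Y h2 R hx hx' hQx hxx he0
  obtain ⟨x₁, x₁', hx₁, hx₁', hQx₁, hxx₁, he₁⟩ := exists_pair h2 hQ (by omega) R' hk0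
  have he₁0 : Q (x₁ - x₁') ≠ 0 := by rw [he₁]; exact hk0
  obtain ⟨s'', t'', R'', step'⟩ := step_Y h2 R' hx₁ hx₁' hQx₁ hxx₁ he₁0
  obtain ⟨y, U, j1, j2, j3, j4, j5⟩ := exists_Y h2 hQ n s'' t'' R''.ss R''.tt R''.ms R''.mt R''.del
  have fin := step _ _ (step' y U ⟨j1, j2, j3, j4, j5⟩)
  refine ⟨_, _, fin.dim, fin.ns, fin.conj, fin.fix, fin.perp, x - x', ?_, x₁ - x₁', ?_, ?_⟩
  · exact Submodule.mem_sup_right (Submodule.mem_span_singleton_self _)
  · exact Submodule.mem_sup_left (Submodule.mem_sup_right (Submodule.mem_span_singleton_self _))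
  · rw [he, he₁, one_mul]
    exact hk

end Cfsg.Agent.H542.QS
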